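import Cfsg.Agent.H164.F4.NotRad
import Cfsg.Agent.H231.QF.Defs

/-!
# S2491, row F4, box K3 (and (e)): elements of `P_1` and `P_4` can be moved out of the radical (helper164)
-/

set_option autoImplicit false

namespace Cfsg.Agent.H164.F4.OutV

open CoxeterSystem Cfsg.Agent.ChevalleyStructure.CoxeterGeom Cfsg.Agent.Tits.Roots Cfsg.Agent.Tits.Core
  Cfsg.Agent.Nodes Cfsg.Agent.Nodes.Reps Cfsg.Agent.Nodes.BNOf Cfsg.Agent.Nodes.RGDLib Cfsg.Agent.Nodes.Bruhat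
  Cfsg.Agent.Nodes.OppDec Cfsg.Agent.Nodes.LeviDec Cfsg.Agent.Nodes.StabComb
open Cfsg.Lie Subgroup
open Cfsg.Agent.H231.QF

universe u

variable {F : Type u} [Field F] [Fintype F] (hF : Fintype.card F = 4) {φ : F →+* F} (hφ : ∀ t, φ t = t ^ 2)

include hF hφ

omit hφ in
theorem charTwo : CharP F 2 := by
  obtain ⟨p, hp⟩ := CharP.exists F
  have hpp : p.Prime := (CharP.char_is_prime_or_zero F p).resolve_right (CharP.char_ne_zero_of_finite F p)
  have : Fact p.Prime := ⟨hpp⟩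
  obtain ⟨n, -, hn⟩ := FiniteField.card F p
  rw [hF] at hn
  have h1 : p ∣ 2 ^ 2 := by
    rw [show (2 : ℕ) ^ 2 = 4 by norm_num, hn]
    exact dvd_pow_self p n.ne_zero
  have h2 := (Nat.prime_dvd_prime_iff_eq hpp Nat.prime_two).1 (hpp.dvd_of_dvd_pow h1)
  rw [← h2]
  exact hp

omit hφ in
theorem hqq (t : F) : (t ^ 2) ^ 2 = t := by
  rw [← pow_mul]
  have := FiniteField.pow_card t
  rwa [hF] at this

theorem gg_top : GG cs RGDTwE6.isCartan (RGDTwE6.T F 2) (X φ) = ⊤ := by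
  rw [eq_top_iff, ← RGDTwE6.G1_eq_top cs (φ := φ) (q := 2) hφ (hqq hF)]
  exact le_sup_right

theorem out_of {i j : Fin 4} (hij : i ≠ j) (hA : RGDTwE6.A i j = -1) (hA' : RGDTwE6.A j i = -1) (g : KK F)
    (h1 : g ≠ 1) (hg : Cfsg.Agent.H231.QF.In φ {k | k ≠ j} g) : Cfsg.Agent.H231.QF.Out φ {k | k ≠ j} g := by
  have : CharP F 2 := charTwo hF
  have : Fact (Nat.Prime 2) := ⟨Nat.prime_two⟩
  have : Finite (KK F) := inferInstance
  have : Finite CoxeterMatrix.F₄.Group :=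
    Cfsg.Agent.Nodes.RGDFold.finite_W (hp := RGDTwE6.hp) cs RGDTwE6.isCartan RGDTwE6.foldData
  exact NotRad.exists_notMem (RGDTwE6.rgd cs hφ (hqq hF) 2) (gg_top hF hφ) hij hA hA' h1 hg

/-- an element `≠ 1` with a conjugate in `P_1` has a conjugate in `P_1 \ V_1` -/
theorem out_one (g : KK F) (h1 : g ≠ 1) (hg : Cfsg.Agent.H231.QF.In φ j1 g) : Cfsg.Agent.H231.QF.Out φ j1 g :=
  out_of hF hφ (i := 1) (j := 0) (by decide) (by decide) (by decide) g h1 hg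

/-- an element `≠ 1` with a conjugate in `P_4` has a conjugate in `P_4 \ V_4` -/
theorem out_four (g : KK F) (h1 : g ≠ 1) (hg : Cfsg.Agent.H231.QF.In φ j4 g) : Cfsg.Agent.H231.QF.Out φ j4 g :=
  out_of hF hφ (i := 2) (j := 3) (by decide) (by decide) (by decide) g h1 hg

/-- K3 -/
theorem out_of_V1 (g : KK F) (hg : g ∈ V φ j1) (h1 : g ≠ 1) : Cfsg.Agent.H231.QF.Out φ j1 g :=
  out_one hF hφ g h1 ⟨1, by
    rw [one_mul, inv_one, mul_one]
    exact VJ_le_PJ hg⟩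

/-- the analogue for `V_4` -/
theorem out_of_V4 (g : KK F) (hg : g ∈ V φ j4) (h1 : g ≠ 1) : Cfsg.Agent.H231.QF.Out φ j4 g :=
  out_four hF hφ g h1 ⟨1, by
    rw [one_mul, inv_one, mul_one]
    exact VJ_le_PJ hg⟩

end Cfsg.Agent.H164.F4.OutV
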